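import Mathlib
import Cfsg.Prelude.Def_HallClasses

/-!
Pronormality of the overgroups of Sylow subgroups along a normal subgroup.
-/

set_option autoImplicit false
set_option linter.unusedSectionVars false

namespace Cfsg.Lib.Pronormal

open Subgroup

universe u

variable {G : Type u} [Group G] [Finite G] {p : ℕ} [hp : Fact p.Prime]

/-- Conjugate subgroup. -/
abbrev cj (g : G) (H : Subgroup G) : Subgroup G := H.map (MulAut.conj g).toMonoidHom

theorem cj_cj (g h : G) (H : Subgroup G) : cj g (cj h H) = cj (g * h) H := by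
  rw [cj, cj, Subgroup.map_map]; congr 1; ext x; simp [mul_assoc]

theorem cj_one (H : Subgroup G) : cj 1 H = H := by
  ext x; simp

theorem cj_eq_iff {g : G} {H : Subgroup G} : cj g H = H ↔ g ∈ normalizer (H : Set G) := by
  constructor
  · intro h
    rw [Subgroup.mem_normalizer_iff]
    intro x
    constructor
    · intro hx; rw [← h]; exact ⟨x, hx, rfl⟩
    · intro hx
      rw [← h] at hx
      obtain ⟨y, hy, hyx⟩ := hx
      have : y = x := mul_left_cancel (mul_right_cancel hyx)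
      exact this ▸ hy
  · intro h
    refine Subgroup.eq_of_le_of_card_ge ?_ (card_map_of_injective (MulAut.conj g).injective).ge
    rintro _ ⟨x, hx, rfl⟩
    exact (Subgroup.mem_normalizer_iff.1 h x).1 hx

theorem cj_le_self {g : G} {H : Subgroup G} (hg : g ∈ H) {X : Subgroup G} (hX : X ≤ H) : cj g X ≤ H := by
  rintro _ ⟨x, hx, rfl⟩
  exact mul_mem (mul_mem hg (hX hx)) (Subgroup.inv_mem _ hg)

theorem pron_cj {K : Subgroup G} (h : Cfsg.IsPronormal K) (a : G) : Cfsg.IsPronormal (cj a K) := by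
  intro g
  obtain ⟨x, hx, hxg⟩ := h (a⁻¹ * g * a)
  refine ⟨a * x * a⁻¹, ?_, ?_⟩
  · have hm : a * x * a⁻¹ ∈ cj a (K ⊔ cj (a⁻¹ * g * a) K) := ⟨x, hx, rfl⟩
    rw [cj, Subgroup.map_sup] at hm
    show a * x * a⁻¹ ∈ cj a K ⊔ cj g (cj a K)
    rwa [show cj g (cj a K) = cj a (cj (a⁻¹ * g * a) K) by rw [cj_cj, cj_cj]; congr 1; group]
  · show cj g (cj a K) = cj (a * x * a⁻¹) (cj a K)
    rw [cj_cj, cj_cj, show a * x * a⁻¹ * a = a * x by group, ← cj_cj a x]
    rw [show cj x K = cj (a⁻¹ * g * a) K from hxg.symm, cj_cj, show a * (a⁻¹ * g * a) = g * a by group]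

/-- Replace `g` by `j * g`. -/
theorem step {K : Subgroup G} {g j : G} (hj : j ∈ K ⊔ cj g K)
    (h : ∃ x ∈ K ⊔ cj (j * g) K, cj (j * g) K = cj x K) : ∃ x ∈ K ⊔ cj g K, cj g K = cj x K := by
  obtain ⟨x, hx, hxe⟩ := h
  have hle : K ⊔ cj (j * g) K ≤ K ⊔ cj g K :=
    sup_le le_sup_left (by rw [← cj_cj]; exact cj_le_self hj le_sup_right)
  refine ⟨j⁻¹ * x, mul_mem (Subgroup.inv_mem _ hj) (hle hx), ?_⟩
  rw [← cj_cj j⁻¹ x, ← hxe, cj_cj, inv_mul_cancel_left]

/-- Subgroups of a subgroup with the order of a Sylow subgroup are conjugate. -/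
theorem exists_conj {B Y Z : Subgroup G} (hY : Y ≤ B) (hZ : Z ≤ B) (hYp : IsPGroup p Y) (hc : Nat.card Z = Nat.card Y)
    (hmax : ∀ Q : Subgroup G, Q ≤ B → IsPGroup p Q → Nat.card Q ≤ Nat.card Y) : ∃ b ∈ B, cj b Y = Z := by
  obtain ⟨m, hm⟩ := IsPGroup.iff_card.1 hYp
  have mk : ∀ X : Subgroup G, X ≤ B → IsPGroup p X → Nat.card X = Nat.card Y →
      ∃ S : Sylow p B, (S : Subgroup B).map B.subtype = X := by
    intro X hX hXp hXc
    obtain ⟨S, hS⟩ := (hXp.of_equiv (subgroupOfEquivOfLe hX).symm).exists_le_sylow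
    refine ⟨S, ?_⟩
    symm
    refine Subgroup.eq_of_le_of_card_ge (fun x hx => ⟨⟨x, hX hx⟩, hS hx, rfl⟩) ?_
    rw [hXc]
    exact hmax _ (map_subtype_le _) (S.isPGroup'.map _)
  obtain ⟨S, hS⟩ := mk Y hY hYp rfl
  obtain ⟨T, hT⟩ := mk Z hZ (IsPGroup.of_card (n := m) (by rw [hc, hm])) hc
  obtain ⟨b, hb⟩ := MulAction.exists_smul_eq B S T
  refine ⟨b, b.2, ?_⟩
  rw [← hS, ← hT, ← hb]
  ext x
  constructor
  · rintro ⟨_, ⟨t, ht, rfl⟩, rfl⟩
    exact ⟨_, ⟨t, ht, rfl⟩, rfl⟩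
  · rintro ⟨_, ⟨t, ht, rfl⟩, rfl⟩
    exact ⟨_, ⟨t, ht, rfl⟩, rfl⟩

section

variable (p) (A : Subgroup G) [hAn : A.Normal] (T : Subgroup G)

/-- `T` is a Sylow subgroup of `A`. -/
structure Syl : Prop where
  le : T ≤ A
  pg : IsPGroup p T
  max : ∀ Q : Subgroup G, Q ≤ A → IsPGroup p Q → Nat.card Q ≤ Nat.card T

variable {p A T}

theorem syl_of_exists (hT : ∃ P : Sylow p ↥A, (P : Subgroup ↥A).map A.subtype = T) : Syl p A T := by
  obtain ⟨P, rfl⟩ := hT
  refine ⟨map_subtype_le _, P.isPGroup'.map _, fun Q hQ hQp => ?_⟩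
  obtain ⟨S, hS⟩ := (hQp.of_equiv (subgroupOfEquivOfLe hQ).symm).exists_le_sylow
  rw [card_map_of_injective A.subtype_injective, ← Nat.card_congr (subgroupOfEquivOfLe hQ).toEquiv,
    P.card_eq_multiplicity, ← S.card_eq_multiplicity]
  exact card_le_of_le hS

theorem inf_eq_of_le (h : Syl p A T) {P : Subgroup G} (hP : IsPGroup p P) (hTP : T ≤ P) : P ⊓ A = T :=
  (Subgroup.eq_of_le_of_card_ge (le_inf hTP h.le) (h.max _ inf_le_right (hP.to_le inf_le_left))).symm

theorem normalizer_le_of_le (h : Syl p A T) {P : Subgroup G} (hP : IsPGroup p P) (hTP : T ≤ P) :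
    normalizer (P : Set G) ≤ normalizer (T : Set G) := by
  intro g hg
  rw [← cj_eq_iff, ← inf_eq_of_le h hP hTP, cj, Subgroup.map_inf _ _ _ (MulAut.conj g).injective]
  congr 1
  · exact cj_eq_iff.2 hg
  · exact cj_eq_iff.2 (by rw [normalizer_eq_top]; trivial)

theorem exists_conj_le (h : Syl p A T) (P : Sylow p G) : ∃ a : G, T ≤ cj a (P : Subgroup G) := by
  obtain ⟨Q, hQ⟩ := h.pg.exists_le_sylow
  obtain ⟨g, hg⟩ := MulAction.exists_smul_eq G P Q
  refine ⟨g, hQ.trans ?_⟩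
  rw [← hg]
  intro x hx
  obtain ⟨y, hy, rfl⟩ := hx
  exact ⟨y, hy, rfl⟩

variable [hTn : (T.subgroupOf (normalizer (T : Set G))).Normal]

theorem pron_of_local (h : Syl p A T)
    (hA : ∀ K : Subgroup ↥A, (∃ P : Sylow p ↥A, (P : Subgroup ↥A) ≤ K) → Cfsg.IsPronormal K)
    (hQ : ∀ K : Subgroup (G ⧸ A), (∃ P : Sylow p (G ⧸ A), (P : Subgroup (G ⧸ A)) ≤ K) → Cfsg.IsPronormal K)
    (hN : ∀ K : Subgroup (↥(normalizer (T : Set G)) ⧸ T.subgroupOf (normalizer (T : Set G))),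
      (∃ P : Sylow p (↥(normalizer (T : Set G)) ⧸ T.subgroupOf (normalizer (T : Set G))),
        (P : Subgroup (↥(normalizer (T : Set G)) ⧸ T.subgroupOf (normalizer (T : Set G)))) ≤ K) → Cfsg.IsPronormal K)
    (hii : ∀ K : Subgroup G, (∃ P : Sylow p G, (P : Subgroup G) ≤ K) →
      normalizer ((K.map (QuotientGroup.mk' A) : Subgroup (G ⧸ A)) : Set (G ⧸ A)) ≤
        (normalizer (K : Set G)).map (QuotientGroup.mk' A))
    (K : Subgroup G) (hK : ∃ P : Sylow p G, (P : Subgroup G) ≤ K) : Cfsg.IsPronormal K := by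
  obtain ⟨P0, hP0⟩ := hK
  obtain ⟨a, ha⟩ := exists_conj_le h P0
  suffices hs : Cfsg.IsPronormal (cj a K) by
    have := pron_cj hs a⁻¹
    rwa [cj_cj, inv_mul_cancel, cj_one] at this
  set P : Sylow p G := a • P0
  have hPK : (P : Subgroup G) ≤ cj a K := fun x hx => by
    obtain ⟨y, hy, rfl⟩ := hx
    exact ⟨y, hP0 hy, rfl⟩
  have hTP : T ≤ (P : Subgroup G) := fun x hx => by
    obtain ⟨y, hy, rfl⟩ := ha hx
    exact ⟨y, hy, rfl⟩
  generalize cj a K = L at hPK ⊢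
  have hTL : T ≤ L := hTP.trans hPK
  set N := normalizer (T : Set G)
  have hPN : (P : Subgroup G) ≤ N := le_normalizer.trans (normalizer_le_of_le h P.isPGroup' hTP)
  set B := L ⊓ A with hB
  have hTB : T ≤ B := le_inf hTL h.le
  set mk := QuotientGroup.mk' A
  have hmkcj : ∀ g, (cj g L).map mk = cj (mk g) (L.map mk) := fun g => by
    rw [cj, cj, Subgroup.map_map, Subgroup.map_map]
    congr 1
  intro g
  show ∃ x ∈ L ⊔ cj g L, cj g L = cj x L
  -- modulo `A`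
  obtain ⟨xb, hxb, hxe⟩ := hQ (L.map mk) ⟨P.mapSurjective (QuotientGroup.mk'_surjective A), map_mono hPK⟩ (mk g)
  change xb ∈ L.map mk ⊔ cj (mk g) (L.map mk) at hxb
  change cj (mk g) (L.map mk) = cj xb (L.map mk) at hxe
  rw [← hmkcj, ← Subgroup.map_sup] at hxb
  obtain ⟨x, hx, rfl⟩ := hxb
  refine step (Subgroup.inv_mem _ hx) ?_
  have hgn : mk (x⁻¹ * g) ∈ normalizer ((L.map mk : Subgroup (G ⧸ A)) : Set (G ⧸ A)) := by
    rw [← cj_eq_iff, map_mul, map_inv, ← cj_cj, hxe, cj_cj, inv_mul_cancel, cj_one]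
  obtain ⟨n, hn, hne⟩ := hii L ⟨P, hPK⟩ hgn
  have haA : x⁻¹ * g * n⁻¹ ∈ A := (QuotientGroup.eq_one_iff _).1 (by
    show mk (x⁻¹ * g * n⁻¹) = 1
    rw [map_mul, map_inv, hne, mul_inv_cancel])
  have hsame : cj (x⁻¹ * g) L = cj (x⁻¹ * g * n⁻¹) L := by
    conv_rhs => rw [← cj_eq_iff.2 hn, cj_cj, inv_mul_cancel_right]
  rw [hsame]
  clear hsame hne hgn hxe hn hx
  generalize x⁻¹ * g * n⁻¹ = g at haA ⊢
  -- inside `A`
  have hgA' : ∀ {z : G}, z ∈ A → cj z A = A := fun {z} hz => cj_eq_iff.2 (le_normalizer hz)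
  have hBg : ∀ {z : G}, z ∈ A → cj z B = cj z L ⊓ A := fun {z} hz => by
    rw [hB, cj, Subgroup.map_inf _ _ _ (MulAut.conj z).injective]
    congr 1
    exact hgA' hz
  obtain ⟨y, hy, hyA, hye⟩ : ∃ y ∈ L ⊔ cj g L, y ∈ A ∧ cj g B = cj y B := by
    obtain ⟨PA, hPA⟩ := (h.pg.of_equiv (subgroupOfEquivOfLe h.le).symm).exists_le_sylow
    have hPAT : (PA : Subgroup A) = T.subgroupOf A := (Subgroup.eq_of_le_of_card_ge hPA (by
      rw [Nat.card_congr (subgroupOfEquivOfLe h.le).toEquiv, ← card_map_of_injective A.subtype_injective]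
      exact h.max _ (map_subtype_le _) (PA.isPGroup'.map _))).symm
    obtain ⟨y, hy, hye⟩ := hA (B.subgroupOf A) ⟨PA, hPAT ▸ comap_mono hTB⟩ ⟨g, haA⟩
    have hmapB : (B.subgroupOf A).map A.subtype = B := by rw [subgroupOf_map_subtype, inf_eq_left.2 inf_le_right]
    have hm : ∀ z : ↥A, ((B.subgroupOf A).map (MulAut.conj z).toMonoidHom).map A.subtype = cj (z : G) B := fun z => by
      conv_rhs => rw [← hmapB]
      rw [cj, Subgroup.map_map, Subgroup.map_map]; rfl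
    refine ⟨y, ?_, y.2, by rw [← hm ⟨g, haA⟩, hye, hm]⟩
    have := mem_map_of_mem A.subtype hy
    rw [Subgroup.map_sup, hmapB, hm] at this
    exact (sup_le (le_sup_of_le_left inf_le_left) (le_sup_of_le_right ((hBg haA).le.trans inf_le_left))) this
  have hg1 : cj (y⁻¹ * g) B = B := by rw [← cj_cj, hye, cj_cj, inv_mul_cancel, cj_one]
  obtain ⟨b, hb, hbe⟩ := exists_conj (p := p) (B := B) (Y := cj (y⁻¹ * g) T) (Z := T)
    ((map_mono hTB).trans hg1.le) hTB (h.pg.map _) (card_map_of_injective (MulAut.conj _).injective).symm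
    (fun Q hQB hQp => by rw [card_map_of_injective (MulAut.conj _).injective]; exact h.max Q (hQB.trans inf_le_right) hQp)
  refine step (j := b * y⁻¹) (mul_mem (le_sup_left (a := L) hb.1) (Subgroup.inv_mem _ hy)) ?_
  have hgB : b * y⁻¹ * g ∈ normalizer (B : Set G) := by
    rw [← cj_eq_iff, mul_assoc, ← cj_cj, hg1]
    exact cj_eq_iff.2 (le_normalizer hb)
  have hgT : b * y⁻¹ * g ∈ N := by
    rw [← cj_eq_iff, mul_assoc, ← cj_cj]
    exact hbe
  generalize b * y⁻¹ * g = g at hgB hgT ⊢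
  -- inside `N`
  set T' := T.subgroupOf N
  set mN := QuotientGroup.mk' T'
  have hmN : Function.Surjective mN := QuotientGroup.mk'_surjective T'
  set L0 := L ⊓ N
  set L' := L0.subgroupOf N
  obtain ⟨xb, hxb, hxe⟩ := hN (L'.map mN) ⟨(P.subtype hPN).mapSurjective hmN, map_mono fun u hu => ⟨hPK hu, u.2⟩⟩
    (mN ⟨g, hgT⟩)
  have hmc : ∀ z : ↥N, (L'.map (MulAut.conj z).toMonoidHom).map mN = (L'.map mN).map (MulAut.conj (mN z)).toMonoidHom := fun z => by
    rw [Subgroup.map_map, Subgroup.map_map]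
    congr 1
  change xb ∈ L'.map mN ⊔ (L'.map mN).map (MulAut.conj (mN ⟨g, hgT⟩)).toMonoidHom at hxb
  rw [← hmc, ← Subgroup.map_sup] at hxb
  obtain ⟨x, hx, rfl⟩ := hxb
  rw [← hmc, ← hmc] at hxe
  have hm : ∀ z : ↥N, (L'.map (MulAut.conj z).toMonoidHom).map N.subtype = cj (z : G) L0 := fun z => by
    have hL : L'.map N.subtype = L0 := map_subgroupOf_eq_of_le (inf_le_right : L0 ≤ N)
    conv_rhs => rw [← hL]
    rw [cj, Subgroup.map_map, Subgroup.map_map]; rfl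
  have hT'le : ∀ z : ↥N, T' ≤ L'.map (MulAut.conj z).toMonoidHom := fun z u hu => by
    refine ⟨z⁻¹ * u * z, ?_, by simp [mul_assoc]⟩
    have : z⁻¹ * u * z ∈ T' := by simpa using (inferInstance : T'.Normal).conj_mem u hu z⁻¹
    exact ⟨hTL this, (z⁻¹ * u * z).2⟩
  have hxe' := congrArg (Subgroup.comap mN) hxe
  rw [Subgroup.comap_map_eq, Subgroup.comap_map_eq, QuotientGroup.ker_mk', sup_eq_left.2 (hT'le _),
    sup_eq_left.2 (hT'le _)] at hxe'
  have hxe'' := congrArg (Subgroup.map N.subtype) hxe'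
  rw [hm, hm] at hxe''
  have hxJ := mem_map_of_mem N.subtype hx
  rw [Subgroup.map_sup, map_subgroupOf_eq_of_le (inf_le_right : L0 ≤ N), hm] at hxJ
  change (x : G) ∈ L0 ⊔ cj g L0 at hxJ
  have hxB : (x : G) ∈ normalizer (B : Set G) := by
    have hJ : L0 ⊔ cj g L0 ≤ normalizer (B : Set G) := ?_
    · exact hJ hxJ
    refine sup_le ?_ ?_
    · intro u hu
      rw [← cj_eq_iff]
      refine Subgroup.eq_of_le_of_card_ge ?_ (card_map_of_injective (MulAut.conj u).injective).ge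
      rintro _ ⟨v, hv, rfl⟩
      exact ⟨mul_mem (mul_mem hu.1 hv.1) (Subgroup.inv_mem _ hu.1), hAn.conj_mem v hv.2 u⟩
    · rintro _ ⟨u, hu, rfl⟩
      have : u ∈ normalizer (B : Set G) := by
        rw [← cj_eq_iff]
        refine Subgroup.eq_of_le_of_card_ge ?_ (card_map_of_injective (MulAut.conj u).injective).ge
        rintro _ ⟨v, hv, rfl⟩
        exact ⟨mul_mem (mul_mem hu.1 hv.1) (Subgroup.inv_mem _ hu.1), hAn.conj_mem v hv.2 u⟩
      exact mul_mem (mul_mem hgB this) (Subgroup.inv_mem _ hgB)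
  refine ⟨x, (sup_le_sup inf_le_left (map_mono inf_le_left)) hxJ, ?_⟩
  have hdec : L = B ⊔ L0 := by
    refine le_antisymm (fun k hk => ?_) (sup_le inf_le_left inf_le_left)
    have hkT : cj k T ≤ B := le_inf (cj_le_self hk hTL) (fun u hu => by
      obtain ⟨v, hv, rfl⟩ := hu; exact hAn.conj_mem v (h.le hv) k)
    obtain ⟨c, hc, hce⟩ := exists_conj (p := p) (B := B) hkT hTB (h.pg.map _)
      (card_map_of_injective (MulAut.conj _).injective).symm
      (fun Q hQB hQp => by rw [card_map_of_injective (MulAut.conj _).injective]; exact h.max Q (hQB.trans inf_le_right) hQp)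
    have hck : c * k ∈ L0 := ⟨mul_mem hc.1 hk, cj_eq_iff.1 (by rw [← cj_cj]; exact hce)⟩
    rw [← inv_mul_cancel_left c k]
    exact mul_mem (mem_sup_left (Subgroup.inv_mem _ hc)) (mem_sup_right hck)
  rw [hdec, cj, cj, Subgroup.map_sup, Subgroup.map_sup]
  congr 1
  exact (cj_eq_iff.2 hgB).trans (cj_eq_iff.2 hxB).symm

/-- The converse direction: the local condition. -/
theorem local_of_pron (h : Syl p A T) (hG : ∀ K : Subgroup G, (∃ P : Sylow p G, (P : Subgroup G) ≤ K) → Cfsg.IsPronormal K)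
    (K : Subgroup (↥(normalizer (T : Set G)) ⧸ T.subgroupOf (normalizer (T : Set G))))
    (hK : ∃ P : Sylow p (↥(normalizer (T : Set G)) ⧸ T.subgroupOf (normalizer (T : Set G))),
        (P : Subgroup (↥(normalizer (T : Set G)) ⧸ T.subgroupOf (normalizer (T : Set G)))) ≤ K) : Cfsg.IsPronormal K := by
  set N := normalizer (T : Set G)
  set T' := T.subgroupOf N
  set mN := QuotientGroup.mk' T'
  have hmN : Function.Surjective mN := QuotientGroup.mk'_surjective T'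
  obtain ⟨Pb, hPb⟩ := hK
  obtain ⟨P0⟩ := (inferInstance : Nonempty (Sylow p G))
  obtain ⟨a, ha⟩ := exists_conj_le h P0
  set P : Sylow p G := a • P0
  have hTP : T ≤ (P : Subgroup G) := fun x hx => by
    obtain ⟨y, hy, rfl⟩ := ha hx
    exact ⟨y, hy, rfl⟩
  have hPN : (P : Subgroup G) ≤ N := le_normalizer.trans (normalizer_le_of_le h P.isPGroup' hTP)
  obtain ⟨m, hm⟩ := MulAction.exists_smul_eq (↥N ⧸ T') ((P.subtype hPN).mapSurjective hmN) Pb
  obtain ⟨n, rfl⟩ := hmN m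
  set K1 := (K.comap mN).map N.subtype
  have hle : ((n : G) • P : Sylow p G) ≤ K1 := by
    rintro _ ⟨u, hu, rfl⟩
    refine ⟨n * ⟨u, hPN hu⟩ * n⁻¹, hPb ?_, rfl⟩
    rw [← hm]
    exact ⟨mN ⟨u, hPN hu⟩, ⟨⟨u, hPN hu⟩, hu, rfl⟩, by simp⟩
  intro gb
  obtain ⟨g, rfl⟩ := hmN gb
  obtain ⟨x, hx, hxe⟩ := hG K1 ⟨_, hle⟩ (g : G)
  have hc : ∀ z : ↥N, cj (z : G) K1 = ((K.comap mN).map (MulAut.conj z).toMonoidHom).map N.subtype := fun z => by
    rw [cj, Subgroup.map_map, Subgroup.map_map]; rfl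
  have hmc : ∀ z : ↥N, ((K.comap mN).map (MulAut.conj z).toMonoidHom).map mN = K.map (MulAut.conj (mN z)).toMonoidHom := fun z => by
    conv_rhs => rw [← map_comap_eq_self_of_surjective hmN K]
    rw [Subgroup.map_map, Subgroup.map_map]
    congr 1
  change x ∈ K1 ⊔ cj (g : G) K1 at hx
  change cj (g : G) K1 = cj x K1 at hxe
  rw [hc, ← Subgroup.map_sup] at hx
  obtain ⟨x', hx', rfl⟩ := hx
  refine ⟨mN x', ?_, ?_⟩
  · have := mem_map_of_mem mN hx'
    rwa [Subgroup.map_sup, map_comap_eq_self_of_surjective hmN, hmc] at this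
  · rw [hc, show N.subtype x' = (x' : G) from rfl, hc] at hxe
    rw [← hmc, ← hmc, map_injective N.subtype_injective hxe]

/-- The converse direction: normalizers of images. -/
theorem normalizer_map_of_pron (hG : ∀ K : Subgroup G, (∃ P : Sylow p G, (P : Subgroup G) ≤ K) → Cfsg.IsPronormal K)
    (K : Subgroup G) (hK : ∃ P : Sylow p G, (P : Subgroup G) ≤ K) :
    normalizer ((K.map (QuotientGroup.mk' A) : Subgroup (G ⧸ A)) : Set (G ⧸ A)) ≤
      (normalizer (K : Set G)).map (QuotientGroup.mk' A) := by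
  set mk := QuotientGroup.mk' A
  intro gb hgb
  obtain ⟨g, rfl⟩ := QuotientGroup.mk'_surjective A gb
  obtain ⟨x, hx, hxe⟩ := hG K hK g
  have hxK : mk x ∈ K.map mk := by
    have := mem_map_of_mem mk hx
    rw [Subgroup.map_sup, sup_eq_left.2] at this
    · exact this
    · rw [Subgroup.map_map]
      rintro _ ⟨u, hu, rfl⟩
      show mk (g * u * g⁻¹) ∈ _
      rw [map_mul, map_mul, map_inv]
      exact (Subgroup.mem_normalizer_iff.1 hgb _).1 ⟨u, hu, rfl⟩
  obtain ⟨k, hk, hkx⟩ := hxK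
  refine ⟨k * (x⁻¹ * g), mul_mem (le_normalizer hk) (cj_eq_iff.1 ?_), ?_⟩
  · rw [← cj_cj]
    show cj x⁻¹ (K.map (MulAut.conj g).toMonoidHom) = K
    rw [hxe, cj_cj, inv_mul_cancel, cj_one]
  · rw [map_mul, hkx, ← map_mul, mul_inv_cancel_left]

/-- Self-normalizing Sylow subgroups give pronormal overgroups. -/
theorem pron_of_self_normalizing {H : Type u} [Group H] [Finite H]
    (hs : ∀ P : Sylow p H, normalizer ((P : Subgroup H) : Set H) = P)
    (K : Subgroup H) (hK : ∃ P : Sylow p H, (P : Subgroup H) ≤ K) :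
    Cfsg.IsPronormal K ∧ normalizer (K : Set H) ≤ K := by
  obtain ⟨P, hPK⟩ := hK
  have hmax : ∀ {B : Subgroup H} (g : H) (Q : Subgroup H), Q ≤ B → IsPGroup p Q → Nat.card Q ≤ Nat.card (cj g (P : Subgroup H)) :=
    fun g Q _ hQ => by
      rw [card_map_of_injective (MulAut.conj g).injective]
      obtain ⟨S, hS⟩ := hQ.exists_le_sylow
      rw [P.card_eq_multiplicity, ← S.card_eq_multiplicity]
      exact card_le_of_le hS
  have key : ∀ (B : Subgroup H) (g : H), (P : Subgroup H) ≤ B → cj g (P : Subgroup H) ≤ B → ∃ j ∈ B, j * g ∈ (P : Subgroup H) :=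
    fun B g h1 h2 => by
      obtain ⟨j, hj, hje⟩ := exists_conj (p := p) h2 h1 (P.isPGroup'.map _)
        (card_map_of_injective (MulAut.conj g).injective).symm (fun Q hQ hQp => hmax g Q hQ hQp)
      exact ⟨j, hj, (hs P).le (cj_eq_iff.1 (by rw [← cj_cj]; exact hje))⟩
  refine ⟨fun g => ?_, fun g hg => ?_⟩
  · obtain ⟨j, hj, hjg⟩ := key (K ⊔ cj g K) g (hPK.trans le_sup_left) ((map_mono hPK).trans le_sup_right)
    refine ⟨j⁻¹, Subgroup.inv_mem _ hj, ?_⟩
    show cj g K = cj j⁻¹ K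
    conv_rhs => rw [← cj_eq_iff.2 (le_normalizer (hPK hjg)), cj_cj, inv_mul_cancel_left]
  · obtain ⟨j, hj, hjg⟩ := key K g hPK ((map_mono hPK).trans (cj_eq_iff.2 hg).le)
    rw [← inv_mul_cancel_left j g]
    exact mul_mem (Subgroup.inv_mem _ hj) (hPK hjg)

end

end Cfsg.Lib.Pronormal
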